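import Cfsg.Agent.H343.LD.KillA3
import Cfsg.Agent.H856.F23.Rel
import Cfsg.Agent.H174.Ore.Fi23Rk

/-!
# `Fi₂₃`: the degree `52540488` does not occur with the values `648648, b` (helper548, for S4910)

`z`, `a` commuting transpositions. The class sum relation at `z a` gives `391 b = ∑ χ(e z a)` over the transpositions `e`; by
the orbits of `C(z, a)` and the integrality at the elements of order 6 the right hand side is `0` modulo 9.
-/

set_option autoImplicit false
set_option maxRecDepth 100000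
set_option linter.constructorNameAsVariable false

namespace Cfsg.Agent.H343.LD.KillA

open Cfsg Subgroup
open Cfsg.Agent.Lib.PermNet Cfsg.Agent.Fischer.Fi23Hom Cfsg.Agent.LThreeFi23
open Cfsg.Agent.KFacts.FiTTh.Cent (C2)
open Cfsg.Agent.Characters Cfsg.Agent.Characters.Core
open Cfsg.Agent.H856.F23 (conj_eq T0 card_cent)
open Cfsg.Spor (Fi23)
open Cfsg.Agent.Fischer.Fi23Z (z0)

/-- commuting with the transposition of a fixed point -/
theorem comm_T {g : Fi23} {p : ℕ} (hp : p < 31671) (h : rho g p = p) : g * T p = T p * g := (fix_iff g hp).1 h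

/-- **The degree `52540488` with the values `648648, b`.** -/
theorem killA {χ : IrrCharacter Fi23} {b c : ℤ} (h : H174.Ore.Fi23Rk.Vals χ 52540488 648648 b c)
    (hb : b = 57288 ∨ b = 234696 ∨ b = -120120) : False := by
  have hone : (χ : Fi23 → ℂ) 1 = ((52540488 : ℤ) : ℂ) := h.one
  have hz2 : el .z * el .z = 1 := el_sq .z
  have ha2 : el .a * el .a = 1 := el_sq .a
  have hne : el .z ≠ el .a := by
    intro h
    apply ab_ne
    rw [← h]
    exact zb
  have hvz : (χ : Fi23 → ℂ) (el .z) = ((648648 : ℤ) : ℂ) := h.val_d _ conj_z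
  have hva : (χ : Fi23 → ℂ) (el .a) = ((648648 : ℤ) : ℂ) := h.val_d _ (conj_el .a)
  have hvb : (χ : Fi23 → ℂ) (el .z * el .a) = (b : ℂ) := h.val_c _ _ conj_z (conj_el .a) hne za
  have g0 : GG χ 0 = ((648648 : ℤ) : ℂ) := by
    unfold GG
    rw [T0, ← mul_assoc, hz2, one_mul, hva]
  have g1 : GG χ 11589 = ((648648 : ℤ) : ℂ) := by
    unfold GG
    rw [show T 11589 = el .a from T_pt .a, za, ← mul_assoc, ha2, one_mul, hvz]
  obtain ⟨k1, hk1⟩ : ∃ k : ℤ, GG χ 8003 = (k : ℂ) := by
    apply int_of_sq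
    have e1 : el .z * T 8003 = T 8003 * el .z := comm_T (by norm_num) zc
    have e2 : el .a * T 8003 = T 8003 * el .a := comm_T (by norm_num) ac
    have e3 : T 8003 * T 8003 = 1 := T_sq (by norm_num)
    calc T 8003 * (el .z * el .a) * (T 8003 * (el .z * el .a))
        = T 8003 * el .z * (el .a * T 8003) * (el .z * el .a) := by group
      _ = T 8003 * (el .z * T 8003) * (el .a * el .z) * el .a := by rw [e2]; group
      _ = T 8003 * T 8003 * (el .z * el .z) * (el .a * el .a) := by rw [e1, ← za]; group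
      _ = 1 := by rw [e3, hz2, ha2, one_mul, one_mul]
  obtain ⟨D, hD, hDc⟩ := stab_b
  obtain ⟨k2, hk2⟩ : ∃ k : ℤ, GG χ 8004 = ((9 * k : ℤ) : ℂ) := by
    have hncom : ¬ Com 8004 11589 := by
      rw [com_iff (by norm_num), show T 11589 = el .a from T_pt .a]
      intro h
      exact ab_ne ((fix_iff _ (by norm_num)).2 h.symm)
    have hbr := braid (p := 8004) (q := 11589) (by norm_num) (by norm_num) hncom
    rw [show T 11589 = el .a from T_pt .a] at hbr
    have hx : el .z * T 8004 = T 8004 * el .z := comm_T (by norm_num) zb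
    obtain ⟨k, hk⟩ := val_six χ (p₀ := 8004) (by norm_num) hz2 ha2 hx za
      (fun h => ab_ne ((fix_iff _ (by norm_num)).2 h.symm)) hbr
      (fun g hg => comm_T (by norm_num) (hD g hg).2) (fun g hg => C2_z (hD g hg).1) (fun g hg => C2_a (hD g hg).1)
      hDc hone
    refine ⟨k, ?_⟩
    rw [← hk]
    unfold GG
    rw [za, mul_assoc]
  obtain ⟨D', hD', hDc'⟩ := stab_j
  obtain ⟨k3, hk3⟩ : ∃ k : ℤ, GG χ 8006 = ((9 * k : ℤ) : ℂ) := by
    have hncom : ¬ Com 8006 0 := by
      rw [com_iff (by norm_num), T0]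
      intro h
      exact zj_ne ((fix_iff _ (by norm_num)).2 h.symm)
    have hbr := braid (p := 8006) (q := 0) (by norm_num) (by norm_num) hncom
    rw [T0] at hbr
    have hx : el .a * T 8006 = T 8006 * el .a := comm_T (by norm_num) aj
    obtain ⟨k, hk⟩ := val_six χ (p₀ := 8006) (by norm_num) ha2 hz2 hx za.symm
      (fun h => zj_ne ((fix_iff _ (by norm_num)).2 h.symm)) hbr
      (fun g hg => comm_T (by norm_num) (hD' g hg).2) (fun g hg => C2_a (hD' g hg).1) (fun g hg => C2_z (hD' g hg).1)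
      hDc' hone
    refine ⟨k, ?_⟩
    rw [← hk]
    unfold GG
    rw [mul_assoc]
  have hsum := sum_T χ (el .z * el .a)
  have hsum' : ∑ q ∈ Finset.range 31671, (χ : Fi23 → ℂ) (T q * (el .z * el .a)) =
      GG χ 0 + GG χ 11589 + 693 * GG χ 8003 + 2816 * GG χ 8004 + 2816 * GG χ 8006 + 25344 * GG χ 8 := sum_GG χ
  rw [hsum', hone, hvz, hvb, g0, g1, hk1, hk2, hk3] at hsum
  have hint : IsIntegral ℤ (GG χ 8) := GaloisBasic.isIntegral_apply (isIrr_isCharacter χ.2) _
  obtain ⟨k4, hk4⟩ := GaloisBasic.exists_int_of_isIntegral hint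
    ⟨((391 * b - 2 * 648648 - 693 * k1 - 2816 * (9 * k2) - 2816 * (9 * k3) : ℤ) : ℚ) / 25344, by
      push_cast at hsum ⊢
      have h0 : (25344 : ℂ) ≠ 0 := by norm_num
      rw [eq_div_iff h0]
      have h1 : (52540488 : ℂ) ≠ 0 := by norm_num
      apply mul_left_cancel₀ h1
      linear_combination hsum⟩
  rw [hk4] at hsum
  have hZ : (52540488 : ℤ) * (648648 + 648648 + 693 * k1 + 2816 * (9 * k2) + 2816 * (9 * k3) + 25344 * k4) =
      31671 * (648648 * b) := by exact_mod_cast hsum
  rcases hb with rfl | rfl | rfl <;> omega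

end Cfsg.Agent.H343.LD.KillA
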