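import Cfsg.Agent.H343.LD.KillA1
import Cfsg.Agent.H856.F23.Rel
import Cfsg.Agent.H174.Ore.Fi23Rk

/-!
# `Fi₂₃`: the degree `52540488` does not occur with the values `648648, b` (helper548, for S4910)

`z`, `a` commuting transpositions. The class sum relation at `z a` gives `391 b = ∑ χ(e z a)` over the transpositions `e`; by
the orbits of `C(z, a)` and the integrality at the elements of order 6 the right hand side is `0` modulo 9.
-/

set_option autoImplicit false
set_option maxRecDepth 100000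
set_option linter.constructorNameAsVariable false

namespace Cfsg.Agent.H343.LD.KillA

open Cfsg Subgroup
open Cfsg.Agent.Lib.PermNet Cfsg.Agent.Fischer.Fi23Hom Cfsg.Agent.LThreeFi23
open Cfsg.Agent.KFacts.FiTTh.Cent (C2)
open Cfsg.Agent.Characters Cfsg.Agent.Characters.Core
open Cfsg.Agent.H856.F23 (conj_eq T0 card_cent)
open Cfsg.Spor (Fi23)
open Cfsg.Agent.Fischer.Fi23Z (z0)

/-! ### `C2` -/

theorem za : el .z * el .a = el .a * el .z := by
  have h : rho (el .z) (pt .a) = pt .a := by
    have h2 : Nat.beq (ptw [.z] 11589) 11589 = true := by decide +kernel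
    have h3 := Nat.eq_of_beq_eq_true h2
    rw [ptw_eq, elw_one] at h3
    exact h3
  exact (fix_pt_iff _ _).1 h

theorem C2_z {g : Fi23} (hg : g ∈ C2) : g * el .z = el .z * g := (fix_zero_iff g).1 hg.1

theorem C2_a {g : Fi23} (hg : g ∈ C2) : g * el .a = el .a * g := (fix_pt_iff g .a).1 hg.2

theorem C2_za {g : Fi23} (hg : g ∈ C2) : g * (el .z * el .a) * g⁻¹ = el .z * el .a := by
  rw [← mul_assoc g, C2_z hg, mul_assoc (el .z), C2_a hg, mul_assoc, mul_assoc, mul_inv_cancel, mul_one]

theorem card_C2' : Nat.card C2 = 36787322880 := by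
  have h := Cfsg.Agent.KFacts.FiTTh.Cent.card_C2
  generalize Nat.card C2 = n at h
  omega

theorem z_eq : el .z = z0 := rfl

theorem conj_z : IsConj z0 (el .z) := IsConj.refl _

theorem conj_T {p : ℕ} (hp : p < 31671) : IsConj z0 (T p) := by
  obtain ⟨k, rfl⟩ := exists_rep hp
  exact isConj_iff.2 ⟨k, by rw [T_eq (g := k) rfl]⟩

theorem conj_el (x : Lt) : IsConj z0 (el x) := by
  rw [← T_pt x]
  exact conj_T (pt_lt x)

/-! ### The class sum relation -/

section

variable (χ : IrrCharacter Fi23)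

/-- the class sum of the transpositions, evaluated at any element -/
theorem sum_T (w : Fi23) : (χ : Fi23 → ℂ) 1 * ∑ q ∈ Finset.range 31671, (χ : Fi23 → ℂ) (T q * w) =
    31671 * ((χ : Fi23 → ℂ) (el .z) * (χ : Fi23 → ℂ) w) := by
  classical
  have := Fintype.ofFinite Fi23
  have h := Central.sum_char_conj_mul χ.2 (el .z) w
  have h1 : ∀ a : Fi23, (χ : Fi23 → ℂ) (a * el .z * a⁻¹ * w) = (χ : Fi23 → ℂ) (T (rho a 0) * w) := by
    intro a
    rw [T_act a (by norm_num), T0]
  rw [Finset.sum_congr rfl fun a _ => h1 a] at h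
  have h2 : ∑ a : Fi23, (χ : Fi23 → ℂ) (T (rho a 0) * w) =
      ∑ q ∈ Finset.range 31671, (129123503308800 : ℂ) * (χ : Fi23 → ℂ) (T q * w) := by
    rw [← Finset.sum_fiberwise_of_maps_to (t := Finset.range 31671) (g := fun a : Fi23 => rho a 0)
      (f := fun a => (χ : Fi23 → ℂ) (T (rho a 0) * w)) (fun a _ => Finset.mem_range.2 (act_lt a (by norm_num)))]
    refine Finset.sum_congr rfl fun q hq => ?_
    have hq' := Finset.mem_range.1 hq
    rw [Finset.sum_congr rfl (g := fun _ => (χ : Fi23 → ℂ) (T q * w)) (fun a ha => by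
      rw [Finset.mem_filter] at ha; rw [ha.2]), Finset.sum_const, nsmul_eq_mul]
    congr 1
    have h3 : (Finset.univ.filter fun a : Fi23 => rho a 0 = q).card =
        Nat.card {a : Fi23 // a * el .z * a⁻¹ = T q} := by
      rw [Nat.card_eq_fintype_card, Fintype.card_subtype]
      congr 1
      ext a
      simp only [Finset.mem_filter, Finset.mem_univ, true_and]
      rw [← T0, ← T_act a (by norm_num)]
      exact ⟨fun h => by rw [h], fun h => T_inj (act_lt a (by norm_num)) hq' h⟩
    rw [h3, ClassMul.card_fiber_conj, card_cent]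
    · norm_num
    · obtain ⟨k, rfl⟩ := exists_rep hq'
      exact isConj_iff.2 ⟨k, by rw [T_act k (by norm_num), T0]⟩
  rw [h2, ← Finset.mul_sum, card_G] at h
  have h1' := isIrr_apply_one_ne_zero χ.2
  rw [eq_div_iff h1'] at h
  have h9 : (129123503308800 : ℂ) ≠ 0 := by norm_num
  apply mul_left_cancel₀ h9
  have h10 : ((4089470473293004800 : ℕ) : ℂ) = 129123503308800 * 31671 := by norm_num
  rw [h10] at h
  linear_combination h

/-- the value at the product of the transposition `q` with `z a` -/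
noncomputable def GG (q : ℕ) : ℂ := (χ : Fi23 → ℂ) (T q * (el .z * el .a))

theorem GG_of {g : Fi23} (hg : g ∈ C2) {q q' : ℕ} (hq : q < 31671) (h : rho g q = q') : GG χ q' = GG χ q := by
  unfold GG
  refine (conj_eq χ (g := g) ?_).symm
  rw [← h, T_act g hq]
  calc g * (T q * (el .z * el .a)) * g⁻¹ = g * T q * g⁻¹ * (g * (el .z * el .a) * g⁻¹) := by group
    _ = _ := by rw [C2_za hg]

/-- the sum over the four parts of a set -/
theorem sum_four {S : Finset ℕ} {A B : ℕ → Prop} [DecidablePred A] [DecidablePred B] (F : ℕ → ℂ) {n ab a b : ℕ} (hS : S.card = n)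
    (hab : (S.filter fun q => A q ∧ B q).card = ab) (hA : (S.filter fun q => A q).card = a)
    (hB : (S.filter fun q => B q).card = b) {x y : ℕ} (hx : x ∈ S ∧ A x ∧ B x) (hy : y ∈ S ∧ A y ∧ B y) (hxy : y ≠ x)
    {c1 c2 c3 c4 : ℂ} (h1 : ∀ q ∈ S, A q → B q → q ≠ x → q ≠ y → F q = c1) (h2 : ∀ q ∈ S, A q → ¬ B q → F q = c2)
    (h3 : ∀ q ∈ S, ¬ A q → B q → F q = c3) (h4 : ∀ q ∈ S, ¬ A q → ¬ B q → F q = c4) :
    ∑ q ∈ S, F q = F x + F y + (ab - 2 : ℂ) * c1 + (a - ab : ℂ) * c2 + (b - ab : ℂ) * c3 + (n - a - b + ab : ℂ) * c4 := by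
  rw [← Finset.sum_filter_add_sum_filter_not S A,
    ← Finset.sum_filter_add_sum_filter_not (S.filter A) B,
    ← Finset.sum_filter_add_sum_filter_not (S.filter fun q => ¬ A q) B]
  rw [Finset.filter_filter, Finset.filter_filter, Finset.filter_filter, Finset.filter_filter]
  have e1 : (S.filter fun q => B q ∧ A q) = S.filter fun q => A q ∧ B q := Finset.filter_congr fun q _ => and_comm
  have e2 : (S.filter fun q => B q ∧ ¬ A q) = S.filter fun q => ¬ A q ∧ B q := Finset.filter_congr fun q _ => and_comm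
  have k2 : ab + (S.filter fun q => A q ∧ ¬ B q).card = a := by
    have h := Finset.card_filter_add_card_filter_not (s := S.filter A) B
    rw [Finset.filter_filter, Finset.filter_filter, hab, hA] at h
    exact h
  have k3 : ab + (S.filter fun q => ¬ A q ∧ B q).card = b := by
    have h := Finset.card_filter_add_card_filter_not (s := S.filter B) A
    rw [Finset.filter_filter, Finset.filter_filter, hB, e1, e2, hab] at h
    exact h
  have k4 : a + ((S.filter fun q => ¬ A q ∧ B q).card + (S.filter fun q => ¬ A q ∧ ¬ B q).card) = n := by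
    have h := Finset.card_filter_add_card_filter_not (s := S) A
    have h' := Finset.card_filter_add_card_filter_not (s := S.filter fun q => ¬ A q) B
    rw [Finset.filter_filter, Finset.filter_filter] at h'
    rw [h', ← hA, ← hS]
    exact h
  have s1 : ∑ q ∈ S.filter (fun q => A q ∧ B q), F q = F x + F y + (ab - 2 : ℂ) * c1 := by
    have m0 : x ∈ S.filter (fun q => A q ∧ B q) := Finset.mem_filter.2 hx
    have m1 : y ∈ (S.filter (fun q => A q ∧ B q)).erase x := Finset.mem_erase.2 ⟨hxy, Finset.mem_filter.2 hy⟩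
    have hge : 2 ≤ ab := by
      have := Finset.card_erase_of_mem m0
      have h5 := Finset.card_pos.2 ⟨y, m1⟩
      rw [this, hab] at h5
      omega
    rw [← Finset.add_sum_erase _ _ m0, ← Finset.add_sum_erase _ _ m1, ← add_assoc]
    rw [Finset.sum_congr rfl (g := fun _ => c1), Finset.sum_const, Finset.card_erase_of_mem m1,
      Finset.card_erase_of_mem m0, hab, nsmul_eq_mul]
    · obtain ⟨t, rfl⟩ := Nat.exists_eq_add_of_le hge
      have : 2 + t - 1 - 1 = t := by omega
      rw [this]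
      push_cast
      ring
    · intro q hq
      rw [Finset.mem_erase, Finset.mem_erase, Finset.mem_filter] at hq
      exact h1 q hq.2.2.1 hq.2.2.2.1 hq.2.2.2.2 hq.2.1 hq.1
  have s2 : ∑ q ∈ S.filter (fun q => A q ∧ ¬ B q), F q = (a - ab : ℂ) * c2 := by
    rw [Finset.sum_congr rfl (g := fun _ => c2), Finset.sum_const, nsmul_eq_mul]
    · rw [← k2]; push_cast; ring
    · intro q hq
      rw [Finset.mem_filter] at hq
      exact h2 q hq.1 hq.2.1 hq.2.2
  have s3 : ∑ q ∈ S.filter (fun q => ¬ A q ∧ B q), F q = (b - ab : ℂ) * c3 := by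
    rw [Finset.sum_congr rfl (g := fun _ => c3), Finset.sum_const, nsmul_eq_mul]
    · rw [← k3]; push_cast; ring
    · intro q hq
      rw [Finset.mem_filter] at hq
      exact h3 q hq.1 hq.2.1 hq.2.2
  have s4 : ∑ q ∈ S.filter (fun q => ¬ A q ∧ ¬ B q), F q = (n - a - b + ab : ℂ) * c4 := by
    rw [Finset.sum_congr rfl (g := fun _ => c4), Finset.sum_const, nsmul_eq_mul]
    · rw [← k4, ← k3]; push_cast; ring
    · intro q hq
      rw [Finset.mem_filter] at hq
      exact h4 q hq.1 hq.2.1 hq.2.2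
  rw [s1, s2, s3, s4]
  ring

/-- the sum over the orbits -/
theorem sum_GG : ∑ q ∈ Finset.range 31671, GG χ q =
    GG χ 0 + GG χ 11589 + 693 * GG χ 8003 + 2816 * GG χ 8004 + 2816 * GG χ 8006 + 25344 * GG χ 8 := by
  have hz0 : rho (el .z) 0 = 0 := (fix_zero_iff _).2 rfl
  have ha0 : rho (el .a) 0 = 0 := (fix_zero_iff _).2 za.symm
  have haa : rho (el .a) 11589 = 11589 := (fix_pt_iff _ .a).2 rfl
  have hza : rho (el .z) 11589 = 11589 := (fix_pt_iff _ .a).2 za
  have hx0 : (0 : ℕ) ∈ Finset.range 31671 := Finset.mem_range.2 (by norm_num)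
  have hx1 : (11589 : ℕ) ∈ Finset.range 31671 := Finset.mem_range.2 (by norm_num)
  have h := sum_four (A := fun q => rho (el .z) q = q) (B := fun q => rho (el .a) q = q) (GG χ)
    (Finset.card_range 31671) card_za card_z card_a (x := 0) (y := 11589) ⟨hx0, hz0, ha0⟩ ⟨hx1, hza, haa⟩
    (by norm_num) (c1 := GG χ 8003) (c2 := GG χ 8004) (c3 := GG χ 8006) (c4 := GG χ 8) ?_ ?_ ?_ ?_
  · rw [h]
    norm_num
  · intro q hq h1 h2 h3 h4
    obtain ⟨g, hg, h⟩ := orb1 (Finset.mem_range.1 hq) h1 h2 h3 h4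
    exact GG_of χ hg (by norm_num) h
  · intro q hq h1 h2
    obtain ⟨g, hg, h⟩ := orb2 (Finset.mem_range.1 hq) h1 h2
    exact GG_of χ hg (by norm_num) h
  · intro q hq h1 h2
    obtain ⟨g, hg, h⟩ := orb2' (Finset.mem_range.1 hq) h1 h2
    exact GG_of χ hg (by norm_num) h
  · intro q hq h1 h2
    obtain ⟨g, hg, h⟩ := orb3 (Finset.mem_range.1 hq) h1 h2
    exact GG_of χ hg (by norm_num) h

/-! ### Integers -/

theorem two_dvd : 2 ∣ Nat.card Fi23 := by rw [card_G]; norm_num

theorem three_dvd : 3 ∣ Nat.card Fi23 := by rw [card_G]; norm_num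

/-- the value at an involution -/
theorem int_of_sq {u : Fi23} (hu : u * u = 1) : ∃ k : ℤ, (χ : Fi23 → ℂ) u = k := by
  apply GaloisBasic.exists_int_of_rat (isIrr_isCharacter χ.2)
  rw [GaloisBasic.exists_rat_iff (isIrr_isCharacter χ.2)]
  intro m hm
  have h2 : m.Coprime 2 := Nat.Coprime.coprime_dvd_right two_dvd hm
  have e2 : ¬ 2 ∣ m := (Nat.Prime.coprime_iff_not_dvd Nat.prime_two).1 h2.symm
  obtain ⟨r, rfl⟩ : ∃ r, m = 2 * r + 1 := ⟨m / 2, by omega⟩
  rw [pow_succ, pow_mul, pow_two, hu, one_pow, one_mul]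

/-- the value at a real element of order dividing 6 -/
theorem int_of_six {u g : Fi23} (hu : u ^ 6 = 1) (hg : g * u * g⁻¹ = u⁻¹) : ∃ k : ℤ, (χ : Fi23 → ℂ) u = k := by
  apply GaloisBasic.exists_int_of_rat (isIrr_isCharacter χ.2)
  rw [GaloisBasic.exists_rat_iff (isIrr_isCharacter χ.2)]
  intro m hm
  have h2 : m.Coprime 2 := Nat.Coprime.coprime_dvd_right two_dvd hm
  have h3 : m.Coprime 3 := Nat.Coprime.coprime_dvd_right three_dvd hm
  have hm6 : m % 6 = 1 ∨ m % 6 = 5 := by
    have e2 : ¬ 2 ∣ m := (Nat.Prime.coprime_iff_not_dvd Nat.prime_two).1 h2.symm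
    have e3 : ¬ 3 ∣ m := (Nat.Prime.coprime_iff_not_dvd Nat.prime_three).1 h3.symm
    omega
  have hpow : u ^ m = u ^ (m % 6) := by
    conv_lhs => rw [← Nat.mod_add_div m 6, pow_add, pow_mul, hu, one_pow, mul_one]
  rw [hpow]
  rcases hm6 with h | h
  · rw [h, pow_one]
  · have h5 : u ^ 5 = u⁻¹ := by
      rw [eq_inv_iff_mul_eq_one, ← pow_succ, hu]
    rw [h, h5]
    exact (conj_eq χ hg).symm

/-- **the centralizer**: `D` commutes with `s` and `x`, `s` of order 3 is not in `D` -/
theorem dvd_cent {D : Subgroup Fi23} {s x : Fi23} (hs : s ^ 3 = 1) (hs1 : s ≠ 1) (hsD : s ∉ D) (hx : x * s = s * x)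
    (hDs : ∀ g ∈ D, g * s = s * g) (hDx : ∀ g ∈ D, g * x = x * g) :
    Nat.card D * 3 ∣ Nat.card (centralizer ({s * x} : Set Fi23)) := by
  have hfact : Fact (Nat.Prime 3) := ⟨Nat.prime_three⟩
  have ho : orderOf s = 3 := orderOf_eq_prime hs hs1
  have hinf : D ⊓ zpowers s = ⊥ := by
    have h3 : (Nat.card ↥(zpowers s)).Prime := by rw [Nat.card_zpowers, ho]; norm_num
    rcases (Nat.dvd_prime h3).1 (card_dvd_of_le (inf_le_right : D ⊓ zpowers s ≤ zpowers s)) with h1 | h1
    · exact Subgroup.card_eq_one.1 h1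
    · exfalso
      have h2 : D ⊓ zpowers s = zpowers s := eq_of_le_of_card_ge inf_le_right h1.ge
      apply hsD
      have h4 : s ∈ D ⊓ zpowers s := by rw [h2]; exact mem_zpowers _
      exact h4.1
  have hcomm : ∀ a ∈ D, ∀ b ∈ zpowers s, Commute a b := by
    intro a ha b hb
    obtain ⟨k, rfl⟩ := mem_zpowers_iff.1 hb
    exact (show Commute a s from hDs a ha).zpow_right k
  have hc : Nat.card ↥(D ⊔ zpowers s) = Nat.card D * 3 := by
    let f := MonoidHom.noncommCoprod D.subtype (zpowers s).subtype (fun a b => hcomm a a.2 b b.2)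
    have hf : Function.Injective f := by
      refine (MonoidHom.noncommCoprod_injective _ _ _).2 ⟨D.subtype_injective, (zpowers s).subtype_injective, ?_⟩
      rw [range_subtype, range_subtype, disjoint_iff]
      exact hinf
    have hr : f.range = D ⊔ zpowers s := by
      refine (MonoidHom.noncommCoprod_range _ _ _).trans ?_
      rw [range_subtype, range_subtype]
    rw [← hr, ← Nat.card_congr (MonoidHom.ofInjective hf).toEquiv, Nat.card_prod, Nat.card_zpowers, ho]
  rw [← hc]
  apply card_dvd_of_le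
  refine sup_le ?_ ?_
  · intro g hg
    rw [mem_centralizer_singleton_iff]
    exact ((show Commute g s from hDs g hg).mul_right (show Commute g x from hDx g hg)).eq
  · rw [zpowers_le, mem_centralizer_singleton_iff]
    exact ((Commute.refl s).mul_right (show Commute s x from hx.symm)).eq

/-- the 3-part of a value -/
theorem nine_dvd {u : Fi23} {k : ℤ} (h1 : (χ : Fi23 → ℂ) 1 = (52540488 : ℤ)) (hk : (χ : Fi23 → ℂ) u = k)
    (hC : 2187 ∣ Nat.card (centralizer ({u} : Set Fi23))) : (9 : ℤ) ∣ k := by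
  have h := Blocks.Blau.isIntegral_centralChar' χ.2 u
  unfold centralChar at h
  rw [h1, hk] at h
  set d := (centralizer ({u} : Set Fi23)).index with hd
  have hdc := (centralizer ({u} : Set Fi23)).card_mul_index
  rw [card_G, ← hd] at hdc
  obtain ⟨m, hm⟩ := GaloisBasic.exists_int_of_isIntegral h ⟨((d : ℚ) * k / 52540488), by push_cast; ring⟩
  have hm' : (d : ℤ) * k = 52540488 * m := by
    have h0 : ((52540488 : ℤ) : ℂ) ≠ 0 := by norm_num
    rw [div_eq_iff h0] at hm
    have : (((d : ℤ) * k : ℤ) : ℂ) = ((52540488 * m : ℤ) : ℂ) := by push_cast at hm ⊢; linear_combination hm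
    exact_mod_cast this
  obtain ⟨c, hc⟩ := hC
  rw [hc] at hdc
  have h2 : (d : ℤ) * c = 729 * 2565020057600 := by
    have : d * c = 729 * 2565020057600 := by
      have h3 : 2187 * (d * c) = 4089470473293004800 := by rw [← hdc]; ring
      omega
    exact_mod_cast this
  have h3 : (9 : ℤ) ∣ (2565020057600) * k := by
    refine ⟨8008 * m * c, ?_⟩
    have h4 : (729 : ℤ) * ((2565020057600) * k) = 729 * (9 * (8008 * m * c)) := by
      calc (729 : ℤ) * ((2565020057600) * k) = (d * c) * k := by rw [h2]; ring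
        _ = c * (d * k) := by ring
        _ = c * (52540488 * m) := by rw [hm']
        _ = _ := by ring
    exact mul_left_cancel₀ (by norm_num) h4
  have hcop : IsCoprime (9 : ℤ) (2565020057600) := by
    rw [Int.isCoprime_iff_gcd_eq_one]
    norm_num
  exact hcop.dvd_of_dvd_mul_left h3

/-- the value at `e y x`, `e = T p₀`, `y` not commuting with `e`, `x` commuting with both -/
theorem val_six {p₀ : ℕ} (hp₀ : p₀ < 31671) {x y : Fi23} (hx2 : x * x = 1) (hy2 : y * y = 1)
    (hxe : x * T p₀ = T p₀ * x) (hxy : x * y = y * x) (hne : T p₀ * y ≠ y * T p₀)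
    (hb : T p₀ * y * T p₀ = y * T p₀ * y) {D : Subgroup Fi23} (hDe : ∀ g ∈ D, g * T p₀ = T p₀ * g)
    (hDx : ∀ g ∈ D, g * x = x * g) (hDy : ∀ g ∈ D, g * y = y * g) (hcard : Nat.card D = 13063680)
    (h1 : (χ : Fi23 → ℂ) 1 = (52540488 : ℤ)) : ∃ k : ℤ, (χ : Fi23 → ℂ) (T p₀ * y * x) = (9 * k : ℤ) := by
  have he2 : T p₀ * T p₀ = 1 := T_sq hp₀
  generalize T p₀ = e at hxe hne hb hDe he2
  have hs3 : (e * y) ^ 3 = 1 := by
    calc (e * y) ^ 3 = (e * y * e) * (y * e * y) := by rw [pow_succ, pow_two]; group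
      _ = (y * e * y) * (y * e * y) := by rw [hb]
      _ = y * e * (y * y) * e * y := by group
      _ = y * (e * e) * y := by rw [hy2]; group
      _ = 1 := by rw [he2, mul_one, hy2]
  have hs1 : e * y ≠ 1 := by
    intro h
    apply hne
    have h2 : e = y := by
      calc e = e * (y * y) := by rw [hy2, mul_one]
        _ = (e * y) * y := by group
        _ = y := by rw [h, one_mul]
    rw [h2]
  have hsx : x * (e * y) = e * y * x := by
    calc x * (e * y) = (x * e) * y := by group
      _ = e * (x * y) := by rw [hxe]; group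
      _ = e * y * x := by rw [hxy]; group
  have hsD : e * y ∉ D := by
    intro h
    apply hne
    have h2 := hDy _ h
    calc e * y = e * y * (y * y) := by rw [hy2, mul_one]
      _ = (e * y * y) * y := by group
      _ = (y * (e * y)) * y := by rw [h2]
      _ = y * e * (y * y) := by group
      _ = y * e := by rw [hy2, mul_one]
  have hu6 : (e * y * x) ^ 6 = 1 := by
    have hc : Commute (e * y) x := hsx.symm
    rw [hc.mul_pow, show 6 = 3 * 2 from rfl, pow_mul, hs3, one_pow, one_mul, mul_comm 3 2, pow_mul, pow_two, hx2,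
      one_pow]
  have hyi : y⁻¹ = y := inv_eq_of_mul_eq_one_left hy2
  have hei : e⁻¹ = e := inv_eq_of_mul_eq_one_left he2
  have hxi : x⁻¹ = x := inv_eq_of_mul_eq_one_left hx2
  have hinv : y * (e * y * x) * y⁻¹ = (e * y * x)⁻¹ := by
    rw [mul_inv_rev, mul_inv_rev, hyi, hei, hxi]
    calc y * (e * y * x) * y = y * e * y * (x * y) := by group
      _ = y * e * (y * y) * x := by rw [hxy]; group
      _ = y * (e * x) := by rw [hy2]; group
      _ = (y * x) * e := by rw [← hxe]; group
      _ = x * (y * e) := by rw [← hxy]; group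
  obtain ⟨k, hk⟩ := int_of_six χ hu6 hinv
  have hC := dvd_cent hs3 hs1 hsD hsx (fun g hg => by
    calc g * (e * y) = (g * e) * y := by group
      _ = e * (g * y) := by rw [hDe g hg]; group
      _ = e * y * g := by rw [hDy g hg]; group) hDx
  rw [hcard] at hC
  obtain ⟨m, rfl⟩ := nine_dvd χ h1 hk (dvd_trans (by norm_num) hC)
  exact ⟨m, hk⟩

end


end Cfsg.Agent.H343.LD.KillA
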