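import Cfsg.Agent.H343.LD.KillA2
import Cfsg.Agent.H856.F23.Rel
import Cfsg.Agent.H174.Ore.Fi23Rk

/-!
# `Fi₂₃`: the degree `52540488` does not occur with the values `648648, b` (helper548, for S4910)

`z`, `a` commuting transpositions. The class sum relation at `z a` gives `391 b = ∑ χ(e z a)` over the transpositions `e`; by
the orbits of `C(z, a)` and the integrality at the elements of order 6 the right hand side is `0` modulo 9.
-/

set_option autoImplicit false
set_option maxRecDepth 100000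
set_option linter.constructorNameAsVariable false

namespace Cfsg.Agent.H343.LD.KillA

open Cfsg Subgroup
open Cfsg.Agent.Lib.PermNet Cfsg.Agent.Fischer.Fi23Hom Cfsg.Agent.LThreeFi23
open Cfsg.Agent.KFacts.FiTTh.Cent (C2)
open Cfsg.Agent.Characters Cfsg.Agent.Characters.Core
open Cfsg.Agent.H856.F23 (conj_eq T0 card_cent)
open Cfsg.Spor (Fi23)
open Cfsg.Agent.Fischer.Fi23Z (z0)

/-! ### The stabilizers in `C2` -/

theorem card_stab {p₀ : ℕ} (P : ℕ → Prop) [DecidablePred P]
    (hP : ∀ q, (q < 31671 ∧ P q) ↔ ∃ g ∈ C2, rho g p₀ = q) (hc : ((Finset.range 31671).filter P).card = 2816) :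
    ∃ D : Subgroup Fi23, (∀ g ∈ D, g ∈ C2 ∧ rho g p₀ = p₀) ∧ Nat.card D = 13063680 := by
  let _ : MulAction C2 ℕ := MulAction.compHom ℕ (rho.comp C2.subtype)
  have hsm : ∀ (x : C2) (p : ℕ), x • p = rho (x : Fi23) p := fun _ _ => rfl
  have ho : MulAction.orbit C2 p₀ = (((Finset.range 31671).filter P : Finset ℕ) : Set ℕ) := by
    ext q
    rw [Finset.mem_coe, Finset.mem_filter, Finset.mem_range, hP]
    constructor
    · rintro ⟨g, rfl⟩
      exact ⟨g, g.2, rfl⟩
    · rintro ⟨g, hg, rfl⟩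
      exact ⟨⟨g, hg⟩, rfl⟩
  have h1 := Subgroup.card_mul_index (MulAction.stabilizer C2 p₀)
  rw [MulAction.index_stabilizer, ho, Set.ncard_coe_finset, hc, card_C2'] at h1
  refine ⟨(MulAction.stabilizer C2 p₀).map C2.subtype, ?_, ?_⟩
  · rintro _ ⟨g, hg, rfl⟩
    exact ⟨g.2, MulAction.mem_stabilizer_iff.1 hg⟩
  · rw [Subgroup.card_map_of_injective C2.subtype_injective]
    generalize Nat.card ↥(MulAction.stabilizer C2 p₀) = n at h1
    omega

theorem card_diff {S : Finset ℕ} {A B : ℕ → Prop} [DecidablePred A] [DecidablePred B] {ab a n : ℕ}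
    (hab : (S.filter fun q => A q ∧ B q).card = ab) (hA : (S.filter fun q => A q).card = a) (hn : ab + n = a) :
    (S.filter fun q => A q ∧ ¬ B q).card = n := by
  have h := Finset.card_filter_add_card_filter_not (s := S.filter A) B
  rw [Finset.filter_filter, Finset.filter_filter, hab, hA] at h
  omega

theorem card_swap {S : Finset ℕ} {A B : ℕ → Prop} [DecidablePred A] [DecidablePred B] {ab : ℕ}
    (hab : (S.filter fun q => A q ∧ B q).card = ab) : (S.filter fun q => B q ∧ A q).card = ab := by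
  rw [← hab]
  exact congrArg Finset.card (Finset.filter_congr fun q _ => and_comm)

theorem card_zna : ((Finset.range 31671).filter fun q => rho (el .z) q = q ∧ ¬ rho (el .a) q = q).card = 2816 :=
  card_diff (A := fun q => rho (el .z) q = q) (B := fun q => rho (el .a) q = q) card_za card_z (by norm_num)

theorem card_anz : ((Finset.range 31671).filter fun q => rho (el .a) q = q ∧ ¬ rho (el .z) q = q).card = 2816 :=
  card_diff (A := fun q => rho (el .a) q = q) (B := fun q => rho (el .z) q = q)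
    (card_swap (A := fun q => rho (el .z) q = q) (B := fun q => rho (el .a) q = q) card_za) card_a (by norm_num)

theorem fix_C2 {x : Fi23} {g : Fi23} (h : g * x = x * g) (p : ℕ) : rho x (rho g p) = rho g p ↔ rho x p = p := by
  rw [← Equiv.Perm.mul_apply, ← map_mul, ← h, map_mul, Equiv.Perm.mul_apply]
  exact (rho g).injective.eq_iff

theorem zb : rho (el .z) 8004 = 8004 := by
  have h2 : Nat.beq (ptw [.z] 8004) 8004 = true := by decide +kernel
  have h3 := Nat.eq_of_beq_eq_true h2
  rwa [ptw_eq, elw_one] at h3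

theorem ab_ne : rho (el .a) 8004 ≠ 8004 := by
  have h2 : Nat.beq (ptw [.a] 8004) 8004 = false := by decide +kernel
  intro h
  rw [ptw_eq, elw_one, h, Nat.beq_refl] at h2
  exact Bool.noConfusion h2

theorem aj : rho (el .a) 8006 = 8006 := by
  have h2 : Nat.beq (ptw [.a] 8006) 8006 = true := by decide +kernel
  have h3 := Nat.eq_of_beq_eq_true h2
  rwa [ptw_eq, elw_one] at h3

theorem zj_ne : rho (el .z) 8006 ≠ 8006 := by
  have h2 : Nat.beq (ptw [.z] 8006) 8006 = false := by decide +kernel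
  intro h
  rw [ptw_eq, elw_one, h, Nat.beq_refl] at h2
  exact Bool.noConfusion h2

theorem zc : rho (el .z) 8003 = 8003 := by
  have h2 : Nat.beq (ptw [.z] 8003) 8003 = true := by decide +kernel
  have h3 := Nat.eq_of_beq_eq_true h2
  rwa [ptw_eq, elw_one] at h3

theorem ac : rho (el .a) 8003 = 8003 := by
  have h2 : Nat.beq (ptw [.a] 8003) 8003 = true := by decide +kernel
  have h3 := Nat.eq_of_beq_eq_true h2
  rwa [ptw_eq, elw_one] at h3

theorem stab_b : ∃ D : Subgroup Fi23, (∀ g ∈ D, g ∈ C2 ∧ rho g 8004 = 8004) ∧ Nat.card D = 13063680 := by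
  refine card_stab (fun q => rho (el .z) q = q ∧ ¬ rho (el .a) q = q) (fun q => ⟨?_, ?_⟩) ?_
  · rintro ⟨h1, h2, h3⟩
    exact orb2 h1 h2 h3
  · rintro ⟨g, hg, rfl⟩
    exact ⟨act_lt g (by norm_num), (fix_C2 (C2_z hg) _).2 zb, fun h => ab_ne ((fix_C2 (C2_a hg) _).1 h)⟩
  · exact card_zna

theorem stab_j : ∃ D : Subgroup Fi23, (∀ g ∈ D, g ∈ C2 ∧ rho g 8006 = 8006) ∧ Nat.card D = 13063680 := by
  refine card_stab (fun q => rho (el .a) q = q ∧ ¬ rho (el .z) q = q) (fun q => ⟨?_, ?_⟩) ?_
  · rintro ⟨h1, h2, h3⟩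
    exact orb2' h1 h3 h2
  · rintro ⟨g, hg, rfl⟩
    exact ⟨act_lt g (by norm_num), (fix_C2 (C2_a hg) _).2 aj, fun h => zj_ne ((fix_C2 (C2_z hg) _).1 h)⟩
  · exact card_anz

end Cfsg.Agent.H343.LD.KillA
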